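import Cfsg.Agent.H316.Final
import Cfsg.Agent.H316.Quo
import Cfsg.Prelude.Def_Spor_Fi22

/-!
# S3232 (helper316)
-/

set_option autoImplicit false

namespace Cfsg.Agent.H316.Fin

open Subgroup Cfsg Cfsg.Agent.H316.Red

universe u

/-- the quotient of the preimage -/
theorem quot_equiv {G : Type*} [Group G] {R : Subgroup G} [R.Normal] (M : Subgroup (G ⧸ R)) :
    ∃ hn : (R.subgroupOf (M.comap (QuotientGroup.mk' R))).Normal,
      Nonempty ((↥(M.comap (QuotientGroup.mk' R)) ⧸ R.subgroupOf (M.comap (QuotientGroup.mk' R))) ≃* M) := by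
  refine ⟨inferInstance, ?_⟩
  set f : M.comap (QuotientGroup.mk' R) →* M :=
    ((QuotientGroup.mk' R).comp (M.comap (QuotientGroup.mk' R)).subtype).codRestrict _ (fun x => x.2) with hf
  have hfs : Function.Surjective f := by
    rintro ⟨y, hy⟩
    obtain ⟨g, rfl⟩ := QuotientGroup.mk'_surjective R y
    exact ⟨⟨g, hy⟩, rfl⟩
  have hfk : R.subgroupOf (M.comap (QuotientGroup.mk' R)) = f.ker := by
    ext x
    rw [MonoidHom.mem_ker, mem_subgroupOf, Subtype.ext_iff]
    exact (QuotientGroup.eq_one_iff (x : G)).symm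
  exact ⟨(QuotientGroup.quotientMulEquivOfEq hfk).trans (QuotientGroup.quotientKerEquivOfSurjective f hfs)⟩

theorem result3232 {G : Type u} [Group G] [Finite G] (z : G) (hz : orderOf z = 2)
    {F : Type*} [Field F] [Fintype F] (hF : Fintype.card F = 3) {K : Type*} [Field K] [Fintype K]
    (hK : Fintype.card K = 4)
    (A E : Subgroup ↥(Subgroup.centralizer ({z} : Set G)))
    (hAE : Cfsg.IsInternalDirectProduct A E (Cfsg.pCore 2 ↥(Subgroup.centralizer ({z} : Set G))))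
    (hA : Nat.card ↥A = 2)
    (hE : Cfsg.IsExtraspecial 2 ↥E) (hEc : Nat.card ↥E = 2 ^ 9)
    (zc : ↥(Subgroup.centralizer ({z} : Set G))) (hzc : (zc : G) = z)
    (hJ' : ⁅(Cfsg.pCore 2 ↥(Subgroup.centralizer ({z} : Set G))),
      (Cfsg.pCore 2 ↥(Subgroup.centralizer ({z} : Set G)))⁆ = Subgroup.zpowers zc)
    (hCJ : Subgroup.centralizer ((Cfsg.pCore 2 ↥(Subgroup.centralizer ({z} : Set G))) :
      Set ↥(Subgroup.centralizer ({z} : Set G))) ≤ Cfsg.pCore 2 ↥(Subgroup.centralizer ({z} : Set G)))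
    [hJn : (Cfsg.pCore 2 ↥(Subgroup.centralizer ({z} : Set G))).Normal]
    (e : (↥(Subgroup.centralizer ({z} : Set G)) ⧸ Cfsg.pCore 2 ↥(Subgroup.centralizer ({z} : Set G))) ≃*
      MulAut (Cfsg.PSp 2 F))
    (hS : ∀ (X : Type u) [Group X] [Finite X] [IsSimpleGroup X], IsKnownSimple' X) :
    Subgroup.centralizer ({z} : Set G) ⊔ Cfsg.oddCore G = ⊤ ∨
      (∃ z₁ : G, orderOf z₁ = 2 ∧ z₁ ∉ Subgroup.zpowers z ∧
        (∃ h₁ : z₁ ∈ Subgroup.centralizer ({z} : Set G),
          (⟨z₁, h₁⟩ : ↥(Subgroup.centralizer ({z} : Set G))) ∈ Cfsg.pCore 2 ↥(Subgroup.centralizer ({z} : Set G)) ∧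
          ∀ j ∈ Cfsg.pCore 2 ↥(Subgroup.centralizer ({z} : Set G)), j * ⟨z₁, h₁⟩ = ⟨z₁, h₁⟩ * j) ∧
        (Subgroup.zpowers z₁).Normal ∧
        ∃ (G₀ : Subgroup G) (_ : z₁ ∈ G₀), G₀.index = 2 ∧
          ∃ _ : ((Subgroup.zpowers z₁).subgroupOf G₀).Normal,
            Nonempty ((↥G₀ ⧸ (Subgroup.zpowers z₁).subgroupOf G₀) ≃* Cfsg.PSU 6 K 2)) ∨
      Cfsg.Spor.IsoFi22 G := by
  have : Fact (Nat.Prime 2) := ⟨Nat.prime_two⟩
  obtain ⟨φ, hφ, hker⟩ := mk_hom e
  obtain ⟨h, hX⟩ := setup_AE hz hAE hA hE hEc hzc hJ' hCJ hφ hker (qdata_aut hF)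
  have hJc : Nat.card (pCore 2 (Ce z)) = 2 ^ 10 := by
    rw [card_prod hAE, hA, hEc]; norm_num
  have hH : Nat.card (Ce z) = 2 ^ 17 * 405 := by
    rw [card_Ce hφ hker hJc, card_aut hF]; norm_num
  by_cases hz' : Ce z = ⊤
  · left; rw [← top_sup_eq (a := oddCore G), ← hz']
  rcases h.oddCore_eq_bot with h1 | hO
  · exact Or.inl h1
  by_cases h2 : pCore 2 G = ⊥
  · -- the almost simple case
    rcases common h hX hH (by omega) le_rfl (fun _ => h2) hS with h3 | ⟨M, hM, hc, h3⟩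
    · exact Or.inl h3
    · rcases h3 with ⟨h4, -⟩ | ⟨-, h4, h5⟩
      · omega
      · right; right
        subst h4
        obtain ⟨f⟩ := h5
        exact ⟨Subgroup.topEquiv.symm.trans f⟩
  · -- a normal subgroup of order 2
    obtain ⟨hRJ, hcen, hzR⟩ := core_le h hz'
    have hRn : (pCore 2 G).Normal := Cfsg.Agent.Lib.Cores.pCore_normal 2
    have hR : Nat.card (pCore 2 G) = 2 := by
      have h3 := (h.twoCore hz').1
      have h4 : Nat.card (pCore 2 G) ≠ 1 := fun h5 => h2 (card_eq_one.1 h5)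
      have h5 : 0 < Nat.card (pCore 2 G) := Nat.card_pos
      omega
    obtain ⟨r, hr, hr1⟩ : ∃ r ∈ pCore 2 G, r ≠ 1 := by
      by_contra hcon
      push Not at hcon
      exact h2 ((eq_bot_iff_forall _).2 hcon)
    have hro : orderOf r = 2 := by
      have h3 : orderOf r ∣ 2 := by
        rw [← hR, ← Subgroup.orderOf_mk r hr]; exact orderOf_dvd_natCard _
      rcases (Nat.dvd_prime Nat.prime_two).1 h3 with h4 | h4
      · exact absurd (orderOf_eq_one_iff.1 h4) hr1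
      · exact h4
    have hrz : zpowers r = pCore 2 G := by
      apply eq_of_le_of_card_ge (by rw [zpowers_le]; exact hr)
      rw [hR, Nat.card_zpowers, hro]
    have hE' := Quo.extraspecial h hR hcen hzR hRJ hAE hA hE hzc hJ'
    obtain ⟨ψ, hψ, hψk⟩ := Quo.exists_phi h hR hcen hRJ hφ hker
    have hJc' : Nat.card (pCore 2 (Ce (QuotientGroup.mk' (pCore 2 G) z))) = 2 ^ 9 := by
      have h3 := Quo.card_pCore h hR hcen hRJ
      rw [hJc] at h3
      omega
    rcases caseE (Quo.orderOf_mk hz hzR) hE' hJc' (Quo.centralizer_le h hR hcen hRJ) hψ hψk (qdata_aut hF)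
      (b := 1) le_rfl (by rw [card_aut hF]; norm_num) hS with h3 | ⟨M, hM, hc, hi, F', _, _, hF', ⟨f⟩⟩
    · exfalso
      apply hz'
      rw [Quo.oddCore_eq hR hcen hO, sup_bot_eq] at h3
      rw [eq_top_iff]
      intro g _
      rw [← Quo.mem_Ce_mk h hcen hRJ, h3]
      exact mem_top _
    · right; left
      refine ⟨r, hro, ?_, ?_, ?_, ?_⟩
      · intro h3
        rcases (mem_zpowers_two hz).1 h3 with h4 | h4
        · exact hr1 h4
        · rw [h4] at hr; exact hzR hr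
      · obtain ⟨h3, h4⟩ := mem_Jz.1 (hRJ hr)
        exact ⟨h3, h4, fun j _ => Subtype.ext (hcen r hr j)⟩
      · rw [hrz]; exact hRn
      · rw [hrz]
        obtain ⟨hn, ⟨q⟩⟩ := quot_equiv M
        obtain ⟨f'⟩ := psu_congr hF' hK f
        refine ⟨M.comap (QuotientGroup.mk' (pCore 2 G)), ?_, ?_, hn, ⟨q.trans f'⟩⟩
        · rw [mem_comap]
          have : QuotientGroup.mk' (pCore 2 G) r = 1 := (QuotientGroup.eq_one_iff r).2 hr
          rw [this]; exact one_mem _
        · rw [index_comap_of_surjective _ (QuotientGroup.mk'_surjective _), hi]; norm_num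

end Cfsg.Agent.H316.Fin
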